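import Mathlib
set_option autoImplicit false

/-!
Rank of a product of two full-rank rectangular matrices.
-/

namespace CfsgLib.BlockInvolution

/-- If `L * A = 1` and `B * R = 1` for inner dimension `ℓ`, then `rank (A * B) = ℓ`. -/
theorem rank_mul_eq_of_inverses {F : Type*} [Field F] {n ℓ : ℕ} (A : Matrix (Fin n) (Fin ℓ) F)
    (B : Matrix (Fin ℓ) (Fin n) F) (L : Matrix (Fin ℓ) (Fin n) F) (R : Matrix (Fin n) (Fin ℓ) F)
    (hL : L * A = 1) (hR : B * R = 1) : (A * B).rank = ℓ := by
  refine le_antisymm ((Matrix.rank_mul_le_left _ _).trans ?_) ?_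
  · simpa using Matrix.rank_le_card_width A
  · have h : L * (A * B) * R = 1 := by
      rw [← Matrix.mul_assoc L A B, hL, Matrix.one_mul, hR]
    have h1 := (Matrix.rank_mul_le_left (L * (A * B)) R).trans (Matrix.rank_mul_le_right L (A * B))
    rw [h, Matrix.rank_one, Fintype.card_fin] at h1
    exact h1

end CfsgLib.BlockInvolution
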